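import Cfsg.Agent.Suzuki.Maximal
import Cfsg.Prelude.Def_Transfer
import Mathlib.FieldTheory.Finite.GaloisField

/-!
# Elementary abelian TI subgroups of the Suzuki groups
-/

set_option autoImplicit false
set_option linter.unusedSectionVars false
set_option linter.style.haveILetI false

namespace Cfsg.Agent.Suzuki

open MulAction

variable {F : Type*} [Field F] [Fintype F] {m : ℕ} [hS : SuzukiField F m]

lemma gD_conj_gT_zero (l : Fˣ) (b : F) :
    gD l * gT 0 b * (gD l : Cfsg.Sz F m)⁻¹ = gT 0 ((th F m l * (l : F)) ^ 2 * b) := by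
  have h := gTD_conj_involution (F := F) (m := m) 0 0 b l
  rwa [gT_zero, one_mul] at h

lemma exists_kappa {c : F} (hc : c ≠ 0) : ∃ l : Fˣ, (th F m l * (l : F)) ^ 2 = c := by
  let κ : F → F := fun x => (th F m x * x) ^ 2
  have hinj : Function.Injective κ := by
    intro x y h
    have h' : th F m x * x = th F m y * y := sq_injective (F := F) (m := m) h
    by_cases hy : y = 0
    · subst hy
      rw [mul_zero, mul_eq_zero, map_eq_zero] at h'
      exact h'.elim id id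
    · have h1 : th F m (x / y) * (x / y) = 1 := by
        rw [map_div₀, div_mul_div_comm, h', div_self]
        exact mul_ne_zero ((map_ne_zero _).2 hy) hy
      exact (div_eq_one_iff_eq hy).1 (th_mul_self_eq_one h1)
  obtain ⟨x, hx⟩ := Finite.injective_iff_surjective.1 hinj c
  exact ⟨Units.mk0 x (fun h => hc (by rw [← hx]; simp [κ, h])), hx⟩

/-- The subgroup of `unipZ` with parameters in an additive subgroup. -/
noncomputable def zSub (V : AddSubgroup F) : Subgroup (Cfsg.Sz F m) where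
  carrier := {g | ∃ b ∈ V, g = gT 0 b}
  mul_mem' := by
    rintro _ _ ⟨b, hb, rfl⟩ ⟨d, hd, rfl⟩
    exact ⟨b + d, V.add_mem hb hd, by rw [gT_mul]; simp⟩
  one_mem' := ⟨0, V.zero_mem, gT_zero.symm⟩
  inv_mem' := by
    rintro _ ⟨b, hb, rfl⟩
    exact ⟨b, hb, by rw [gT_inv]; simp⟩

lemma gT_zero_inj {b c : F} (h : (gT 0 b : Cfsg.Sz F m) = gT 0 c) : b = c := by
  have h' := congrArg (· • oPt F m 0 0) h
  simp only [gT_smul_oPt] at h'
  simpa using (oPt_inj h').2

lemma card_zSub (V : AddSubgroup F) : Nat.card (zSub (m := m) V) = Nat.card V := by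
  refine (Nat.card_congr (Equiv.ofBijective
    (fun v : V => (⟨gT 0 v.1, v.1, v.2, rfl⟩ : zSub (m := m) V)) ⟨?_, ?_⟩)).symm
  · intro a b h
    exact Subtype.ext (gT_zero_inj (congrArg Subtype.val h))
  · rintro ⟨_, b, hb, rfl⟩
    exact ⟨⟨b, hb⟩, rfl⟩

theorem zSub_ti (K : Subfield F) (x : Cfsg.Sz F m)
    (h : zSub K.toAddSubgroup ⊓ (zSub K.toAddSubgroup).map (MulAut.conj x).toMonoidHom ≠ ⊥) :
    x ∈ Subgroup.normalizer (zSub K.toAddSubgroup : Set (Cfsg.Sz F m)) := by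
  set E : Subgroup (Cfsg.Sz F m) := zSub K.toAddSubgroup with hE
  obtain ⟨e, ⟨⟨b, hb, rfl⟩, ⟨f, ⟨c, hc, rfl⟩, hf⟩⟩, he⟩ := (Subgroup.ne_bot_iff_exists_ne_one.1 h
    |>.elim fun y hy => (⟨y.1, y.2, fun h => hy (Subtype.ext h)⟩ : ∃ e, e ∈ E ⊓ E.map
      (MulAut.conj x).toMonoidHom ∧ e ≠ 1))
  rw [MulEquiv.coe_toMonoidHom, MulAut.conj_apply] at hf
  have hb0 : b ≠ 0 := fun h => he (by rw [h, gT_zero])
  have hc0 : c ≠ 0 := fun h => he (by rw [← hf, h, gT_zero, mul_one, mul_inv_cancel])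
  have hx : x • oInf F m = oInf F m := by
    refine involution_fix_unique (orderOf_gT_zero (m := m) hb0) ?_ (gT_smul_oInf 0 b)
    rw [← hf, mul_smul, mul_smul, inv_smul_smul, gT_smul_oInf]
  obtain ⟨a, d, l, rfl⟩ := exists_gT_gD_of_fix hx
  rw [gTD_conj_involution] at hf
  have hκ : (th F m l * (l : F)) ^ 2 ∈ K := by
    have := K.mul_mem hb (K.inv_mem hc)
    rwa [← gT_zero_inj hf, mul_assoc, mul_inv_cancel₀ hc0, mul_one] at this
  have hle : E.map (MulAut.conj (gT a d * gD l)).toMonoidHom ≤ E := by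
    rintro _ ⟨_, ⟨c', hc', rfl⟩, rfl⟩
    exact ⟨_, K.mul_mem hκ hc', by rw [MulEquiv.coe_toMonoidHom, MulAut.conj_apply,
      gTD_conj_involution]⟩
  have heq : E.map (MulAut.conj (gT a d * gD l)).toMonoidHom = E :=
    Subgroup.eq_of_le_of_card_ge hle (le_of_eq (Nat.card_congr
      (Subgroup.equivMapOfInjective _ _ (MulAut.conj _).injective).toEquiv))
  rw [Subgroup.mem_normalizer_iff]
  intro z
  constructor
  · intro hz
    rw [← heq]
    exact ⟨z, hz, rfl⟩
  · intro hz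
    rw [← heq] at hz
    obtain ⟨w, hw, hwz⟩ := hz
    exact (MulAut.conj _).injective hwz ▸ hw

theorem exists_ti_elementary_of_dvd {n : ℕ} (hn : n ≠ 0) (hd : n ∣ 2 * m + 1) :
    ∃ E : Subgroup (Cfsg.Sz F m), Cfsg.IsElementaryAbelian 2 E ∧ Nat.card E = 2 ^ n ∧
      ∀ x : Cfsg.Sz F m, E ⊓ E.map (MulAut.conj x).toMonoidHom ≠ ⊥ →
        x ∈ Subgroup.normalizer (E : Set (Cfsg.Sz F m)) := by
  haveI : Fact (Nat.Prime 2) := ⟨Nat.prime_two⟩
  letI : Algebra (ZMod 2) F := ZMod.algebra F 2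
  have hF : Module.finrank (ZMod 2) F = 2 * m + 1 := by
    have h := Module.natCard_eq_pow_finrank (K := ZMod 2) (V := F)
    rw [Nat.card_eq_fintype_card, hS.card, Nat.card_zmod] at h
    exact (Nat.pow_right_injective le_rfl h).symm
  obtain ⟨f⟩ := FiniteField.nonempty_algHom_of_finrank_dvd (K := GaloisField 2 n) (L := F)
    (F := ZMod 2) (by rw [hF, GaloisField.finrank 2 hn]; exact hd)
  set K : Subfield F := f.toRingHom.fieldRange with hK
  refine ⟨zSub K.toAddSubgroup, ⟨⟨⟨?_⟩⟩, ?_⟩, ?_, zSub_ti K⟩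
  · rintro ⟨_, b, hb, rfl⟩ ⟨_, c, hc, rfl⟩
    refine Subtype.ext ?_
    show gT 0 b * gT 0 c = gT 0 c * gT 0 b
    rw [gT_mul, gT_mul]
    simp [add_comm]
  · rintro _ ⟨b, hb, rfl⟩
    rw [gT_sq]
    simp [gT_zero]
  · rw [card_zSub]
    show Nat.card (Set.range f.toRingHom) = _
    rw [Nat.card_congr (Equiv.ofInjective _ f.toRingHom.injective).symm, GaloisField.card 2 n hn]

theorem dvd_of_ti_elementary {n : ℕ} (hn : n ≠ 0) {E : Subgroup (Cfsg.Sz F m)}
    (hE : Cfsg.IsElementaryAbelian 2 E) (hcard : Nat.card E = 2 ^ n)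
    (hti : ∀ x : Cfsg.Sz F m, E ⊓ E.map (MulAut.conj x).toMonoidHom ≠ ⊥ →
      x ∈ Subgroup.normalizer (E : Set (Cfsg.Sz F m))) : n ∣ 2 * m + 1 := by
  haveI : Fact (Nat.Prime 2) := ⟨Nat.prime_two⟩
  obtain ⟨P, hP⟩ := (IsPGroup.of_card hcard).exists_le_sylow
  obtain ⟨k, rfl⟩ := MulAction.exists_smul_eq (Cfsg.Sz F m) (unipSylow F m) P
  -- everything in coordinates after conjugating by `k⁻¹`
  have hform : ∀ e ∈ E, ∃ b, k⁻¹ * e * k = gT 0 b := by
    intro e he
    obtain ⟨a, b, hab⟩ := mem_smul_unipSylow.1 (hP he)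
    refine ⟨b, ?_⟩
    rw [hab]
    have h2 : (gT a b : Cfsg.Sz F m) ^ 2 = 1 := by
      rw [← hab]
      rw [sq, show k⁻¹ * e * k * (k⁻¹ * e * k) = k⁻¹ * (e * e) * k by
        simp only [mul_assoc, mul_inv_cancel_left], ← sq e, hE.2 e he, mul_one, inv_mul_cancel]
    by_cases ha : a = 0
    · rw [ha]
    · exfalso
      have := orderOf_dvd_of_pow_eq_one h2
      rw [orderOf_gT ha] at this
      norm_num at this
  let V : AddSubgroup F :=
    { carrier := {b | k * gT 0 b * k⁻¹ ∈ E}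
      add_mem' := fun {b c} hb hc => by
        have := E.mul_mem hb hc
        show k * gT 0 (b + c) * k⁻¹ ∈ E
        convert this using 1
        rw [show k * gT 0 b * k⁻¹ * (k * gT 0 c * k⁻¹) = k * (gT 0 b * gT 0 c) * k⁻¹ by group,
          gT_mul]
        simp
      zero_mem' := by simp [gT_zero]
      neg_mem' := fun {b} hb => by simpa [CharTwo.neg_eq] using hb }
  have hV : Nat.card V = 2 ^ n := by
    rw [← hcard]
    refine Nat.card_congr (Equiv.ofBijective
      (fun v : V => (⟨k * gT 0 v.1 * k⁻¹, v.2⟩ : E)) ⟨?_, ?_⟩)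
    · intro a b h
      exact Subtype.ext (gT_zero_inj (mul_left_cancel (mul_right_cancel (congrArg Subtype.val h))))
    · rintro ⟨e, he⟩
      obtain ⟨b, hb⟩ := hform e he
      have he' : e = k * gT 0 b * k⁻¹ := by rw [← hb]; group
      exact ⟨⟨b, show k * gT 0 b * k⁻¹ ∈ E from he' ▸ he⟩, Subtype.ext he'.symm⟩
  have hstable : ∀ c v, v ∈ V → v ≠ 0 → c * v ∈ V → c ≠ 0 → ∀ w ∈ V, c * w ∈ V := by
    intro c v hv hv0 hcv hc w hw
    obtain ⟨l, rfl⟩ := exists_kappa (m := m) hc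
    have key : ∀ u, k * gD l * k⁻¹ * (k * gT 0 u * k⁻¹) * (k * gD l * k⁻¹)⁻¹ =
        k * gT 0 ((th F m l * (l : F)) ^ 2 * u) * k⁻¹ := fun u => by
      rw [← gD_conj_gT_zero]; group
    have hne : E ⊓ E.map (MulAut.conj (k * gD l * k⁻¹)).toMonoidHom ≠ ⊥ := by
      refine fun hb => mul_ne_zero hc hv0 ?_
      have hm : k * gT 0 ((th F m l * (l : F)) ^ 2 * v) * k⁻¹ ∈
          E ⊓ E.map (MulAut.conj (k * gD l * k⁻¹)).toMonoidHom :=
        ⟨hcv, _, hv, key v⟩
      rw [hb, Subgroup.mem_bot, conj_eq_one_iff] at hm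
      exact gT_zero_inj (hm.trans gT_zero.symm)
    have := (Subgroup.mem_normalizer_iff.1 (hti _ hne) _).1 hw
    rw [key] at this
    exact this
  obtain ⟨v₀, hv₀⟩ : ∃ v : V, v ≠ 0 := by
    haveI : Finite V := inferInstance
    have h2 : 1 < Nat.card V := by rw [hV]; exact Nat.one_lt_two_pow hn
    haveI := Finite.one_lt_card_iff_nontrivial.1 h2
    exact exists_ne 0
  have hv₀' : (v₀ : F) ≠ 0 := fun h => hv₀ (Subtype.ext h)
  let K : Subfield F :=
    { carrier := {c | ∀ w ∈ V, c * w ∈ V}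
      one_mem' := fun w hw => by rwa [one_mul]
      zero_mem' := fun w hw => by rw [zero_mul]; exact V.zero_mem
      add_mem' := fun {a b} ha hb w hw => by rw [add_mul]; exact V.add_mem (ha w hw) (hb w hw)
      neg_mem' := fun {a} ha w hw => by rw [neg_mul]; exact V.neg_mem (ha w hw)
      mul_mem' := fun {a b} ha hb w hw => by rw [mul_assoc]; exact ha _ (hb w hw)
      inv_mem' := fun c hc w hw => by
        by_cases h0 : c = 0
        · rw [h0, inv_zero, zero_mul]; exact V.zero_mem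
        · refine hstable c⁻¹ (c * v₀) (hc _ v₀.2) (mul_ne_zero h0 hv₀') ?_ (inv_ne_zero h0) w hw
          rw [← mul_assoc, inv_mul_cancel₀ h0, one_mul]
          exact v₀.2 }
  have hKV : Nat.card K = Nat.card V := by
    refine Nat.card_congr (Equiv.ofBijective (fun c : K => (⟨c.1 * v₀, c.2 _ v₀.2⟩ : V)) ⟨?_, ?_⟩)
    · intro a b h
      exact Subtype.ext (mul_right_cancel₀ hv₀' (congrArg Subtype.val h))
    · rintro ⟨v, hv⟩
      refine ⟨⟨v / v₀, ?_⟩, Subtype.ext (div_mul_cancel₀ v hv₀')⟩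
      by_cases h0 : v = 0
      · rw [h0, zero_div]; exact K.zero_mem
      · exact hstable _ v₀ v₀.2 hv₀' (by rw [div_mul_cancel₀ v hv₀']; exact hv)
          (div_ne_zero h0 hv₀')
  obtain ⟨j, hj, hdvd⟩ := subfield_card (m := m) K
  rw [hKV, hV] at hj
  rwa [Nat.pow_right_injective le_rfl hj]

end Cfsg.Agent.Suzuki
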